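/-
Piece A1 of helper20's farm for S2197 (by helper67).
-/
import Cfsg.Agent.Lib.Helper20.Tits2T.Defs

set_option autoImplicit false

namespace Cfsg.Agent.Lib.Helper20.Tits2T

/-- conjugate elements have the same number of fixed points -/
theorem card_fixedBy_conj {G : Type*} [Group G] {Ω : Type*} [MulAction G Ω] (c y : G) :
    Nat.card (MulAction.fixedBy Ω (c * y * c⁻¹)) = Nat.card (MulAction.fixedBy Ω y) := by
  refine Nat.card_congr ⟨fun β => ⟨c⁻¹ • (β : Ω), ?_⟩, fun β => ⟨c • (β : Ω), ?_⟩, ?_, ?_⟩
  · have h := β.2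
    rw [MulAction.mem_fixedBy] at h ⊢
    conv_rhs => rw [← h]
    simp only [smul_smul]
    congr 1
    group
  · have h := β.2
    rw [MulAction.mem_fixedBy] at h ⊢
    conv_rhs => rw [← h]
    simp only [smul_smul]
    congr 1
    group
  · intro β
    ext
    simp
  · intro β
    ext
    simp

/-- [A1] Burnside's lemma for a subgroup all of whose non-identity elements are conjugate (in `G`)
to a fixed element `y`. -/
theorem burnside_const {G : Type*} [Group G] {Ω : Type*} [Fintype Ω] [MulAction G Ω]
    (H : Subgroup G) [Finite H] (y : G) (hH : ∀ h ∈ H, h ≠ 1 → ∃ c : G, c * y * c⁻¹ = h) :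
    Nat.card (MulAction.orbitRel.Quotient H Ω) * Nat.card H =
      Fintype.card Ω + (Nat.card H - 1) * Nat.card (MulAction.fixedBy Ω y) := by
  classical
  haveI : Fintype H := Fintype.ofFinite H
  have hB := MulAction.sum_card_fixedBy_eq_card_orbits_mul_card_group H Ω
  rw [Nat.card_eq_fintype_card, Nat.card_eq_fintype_card, ← hB,
    ← Finset.add_sum_erase _ _ (Finset.mem_univ (1 : H))]
  congr 1
  · rw [← Nat.card_eq_fintype_card, ← Nat.card_eq_fintype_card]
    refine Nat.card_congr ⟨fun β => β.1, fun β => ⟨β, by simp⟩, fun β => rfl, fun β => rfl⟩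
  · rw [Finset.sum_const_nat (m := Nat.card (MulAction.fixedBy Ω y))]
    · rw [Finset.card_erase_of_mem (Finset.mem_univ _), Finset.card_univ]
    · intro h hh
      have hne : (h : G) ≠ 1 := by
        intro h1
        exact (Finset.mem_erase.1 hh).1 (Subtype.ext h1)
      obtain ⟨c, hc⟩ := hH h h.2 hne
      rw [← Nat.card_eq_fintype_card, ← card_fixedBy_conj c y, hc]
      rfl

end Cfsg.Agent.Lib.Helper20.Tits2T
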