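/-
Piece A2 of helper20's farm for S2197 (by helper67).
-/
import Cfsg.Agent.Lib.Helper20.Tits2T.Defs

set_option autoImplicit false

namespace Cfsg.Agent.Lib.Helper20.Tits2T

/-- [A2] a `p`-group without a global fixed point has at most `|Ω| / p` orbits. -/
theorem orbits_mul_le {G : Type*} [Group G] {Ω : Type*} [Fintype Ω] [MulAction G Ω]
    (H : Subgroup G) [Finite H] (p : ℕ) [Fact p.Prime] (hH : IsPGroup p H)
    (hfix : ∀ β : Ω, ∃ h ∈ H, h • β ≠ β) :
    Nat.card (MulAction.orbitRel.Quotient H Ω) * p ≤ Fintype.card Ω := by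
  classical
  have hp : p.Prime := Fact.out
  haveI : Fintype (MulAction.orbitRel.Quotient H Ω) := Fintype.ofFinite _
  have e := MulAction.selfEquivSigmaOrbits H Ω
  have hcard : Fintype.card Ω
      = ∑ ω : MulAction.orbitRel.Quotient H Ω, Nat.card (MulAction.orbit H ω.out) := by
    rw [← Nat.card_eq_fintype_card, Nat.card_congr e, Nat.card_sigma]
  rw [hcard, Nat.card_eq_fintype_card, ← Finset.card_univ, ← smul_eq_mul]
  apply Finset.card_nsmul_le_sum
  intro ω _
  obtain ⟨n, hn⟩ := hH.card_orbit ω.out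
  rw [hn]
  rcases Nat.eq_zero_or_pos n with rfl | hn0
  · exfalso
    rw [pow_zero, Nat.card_eq_one_iff_unique] at hn
    obtain ⟨hs, _⟩ := hn
    obtain ⟨h, hh, hne⟩ := hfix ω.out
    apply hne
    have h1 : (⟨(⟨h, hh⟩ : H) • ω.out, MulAction.mem_orbit _ _⟩ : MulAction.orbit H ω.out)
        = ⟨ω.out, MulAction.mem_orbit_self _⟩ := Subsingleton.elim _ _
    exact congrArg Subtype.val h1
  · calc p = p ^ 1 := (pow_one p).symm
      _ ≤ p ^ n := Nat.pow_le_pow_right hp.pos hn0

end Cfsg.Agent.Lib.Helper20.Tits2T
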