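/-
Pieces B1, B2 of helper20's farm for S2197 (by helper67).
NOTE: B1 needs `2 ≤ card Ω` (for `card Ω ≤ 1` the left side is `0`), added as a hypothesis.
-/
import Cfsg.Agent.Lib.Helper20.Tits2T.Defs

set_option autoImplicit false

namespace Cfsg.Agent.Lib.Helper20.Tits2T

/-- [B1] (with the necessary extra hypothesis `2 ≤ card Ω`) -/
theorem two_trans_dvd {G : Type*} [Group G] [Finite G] {Ω : Type*} [Fintype Ω] [MulAction G Ω]
    (h : MulAction.IsMultiplyPretransitive G Ω 2) (h2 : 2 ≤ Fintype.card Ω) :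
    Fintype.card Ω * (Fintype.card Ω - 1) ∣ Nat.card G := by
  classical
  obtain ⟨a, b, hab⟩ := Fintype.one_lt_card_iff.1 (show 1 < Fintype.card Ω by omega)
  have hs : ({a, b} : Set Ω).ncard = 2 := Set.ncard_pair hab
  have h1 := h.index_of_fixingSubgroup_mul hs
  rw [Nat.card_eq_fintype_card] at h1
  obtain ⟨m, hm⟩ : ∃ m, Fintype.card Ω = m + 2 := ⟨Fintype.card Ω - 2, by omega⟩
  rw [hm] at h1 ⊢
  have h3 : (m + 2).factorial = (m + 2) * (m + 1) * m.factorial := by
    rw [Nat.factorial_succ, Nat.factorial_succ, mul_assoc]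
  rw [Nat.add_sub_cancel, h3] at h1
  have h4 := Nat.eq_of_mul_eq_mul_right (Nat.factorial_pos m) h1
  have h5 : m + 2 - 1 = m + 1 := by omega
  rw [h5, ← h4]
  exact Subgroup.index_dvd_card _

/-- [B2] -/
theorem card_stabilizer_mul {G : Type*} [Group G] [Finite G] {Ω : Type*} [Fintype Ω]
    [MulAction G Ω] (h : MulAction.IsMultiplyPretransitive G Ω 2) (β : Ω) :
    Nat.card (MulAction.stabilizer G β) * Fintype.card Ω = Nat.card G := by
  classical
  have htr : MulAction.IsPretransitive G Ω := by
    by_cases h2 : 2 ≤ Fintype.card Ω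
    · rw [← MulAction.is_one_pretransitive_iff]
      exact MulAction.isMultiplyPretransitive_of_le (n := 2) (by norm_num)
        (by rw [Nat.card_eq_fintype_card]; exact h2)
    · have : Subsingleton Ω := by
        rw [← Fintype.card_le_one_iff_subsingleton]; omega
      exact ⟨fun x y => ⟨1, Subsingleton.elim _ _⟩⟩
  have h1 := MulAction.index_stabilizer_of_transitive G β
  rw [Nat.card_eq_fintype_card] at h1
  rw [← h1]
  exact Subgroup.card_mul_index _

end Cfsg.Agent.Lib.Helper20.Tits2T
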