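/-
Piece B3 of helper20's farm for S2197 (by helper67).
-/
import Cfsg.Agent.Lib.Helper20.Tits2T.Defs

set_option autoImplicit false

namespace Cfsg.Agent.Lib.Helper20.Tits2T

set_option maxRecDepth 100000 in
theorem cand_aux : ∀ n < 4241, 3 ≤ n → n * (n - 1) ∣ 17971200 →
    n < 27 ∨ n = 27 ∨ n = 40 ∨ n = 65 := by
  decide +kernel

/-- [B3] -/
theorem cand (n : ℕ) (h3 : 3 ≤ n) (hd : n * (n - 1) ∣ 17971200) :
    n < 27 ∨ n = 27 ∨ n = 40 ∨ n = 65 := by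
  apply cand_aux n _ h3 hd
  by_contra hcon
  have h1 : 4241 ≤ n := by omega
  have h2 : 4240 ≤ n - 1 := by omega
  have h3 := Nat.le_of_dvd (by norm_num) hd
  have h4 : 4241 * 4240 ≤ n * (n - 1) := Nat.mul_le_mul h1 h2
  omega

end Cfsg.Agent.Lib.Helper20.Tits2T
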