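/-
Piece C of helper20's farm for S2197 (by helper67).
-/
import Cfsg.Agent.Lib.Helper20.Tits2T.Defs

set_option autoImplicit false

namespace Cfsg.Agent.Lib.Helper20.Tits2T

/-- a self-map `f` of a finite type with `f^p = id` : `|α| ≡ |Fix f| mod p` -/
theorem card_modEq_of_iter {α : Type*} [Fintype α] [DecidableEq α] (p : ℕ) [Fact p.Prime]
    (f : α → α) (hf : ∀ a, f^[p] a = a) :
    Fintype.card α ≡ Nat.card {a : α // f a = a} [MOD p] := by
  let F : Function.End α := f
  have h1 : F ^ p ^ 1 = 1 := by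
    rw [pow_one]
    funext a
    have : (F ^ p) a = f^[p] a := by
      have h := hom_coe_pow (fun g : Function.End α ↦ (g : α → α)) rfl (fun g h ↦ rfl) F p
      exact congrFun h a
    rw [this, hf a]
    rfl
  have h2 := Equiv.Perm.card_fixedPoints_modEq (f := F) (p := p) (n := 1) h1
  rw [← Nat.card_eq_fintype_card (α := Function.fixedPoints _)] at h2
  exact h2

/-- [C] the case `n = 27`: `w` has no fixed point, normalizes `⟨x⟩`. -/
theorem case27 {G : Type*} [Group G] {Ω : Type*} [Fintype Ω] [MulAction G Ω] [FaithfulSMul G Ω]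
    (hΩ : Fintype.card Ω = 27) (x w : G) (hx1 : x ≠ 1) (hx : x ^ 13 = 1) (hw : w ^ 3 = 1)
    (hwx : w * x * w⁻¹ = x ^ 3) (hfix : Nat.card (MulAction.fixedBy Ω w) = 0) : False := by
  classical
  haveI : Fact (Nat.Prime 13) := ⟨by norm_num⟩
  haveI : Fact (Nat.Prime 3) := ⟨by norm_num⟩
  have hiter : ∀ (g : G) (n : ℕ) (β : Ω), (fun β : Ω => g • β)^[n] β = g ^ n • β := by
    intro g n β
    induction n with
    | zero => simp
    | succ n ih => rw [Function.iterate_succ_apply', ih, smul_smul, pow_succ']
  -- `|Fix x| ≡ 27 mod 13`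
  have h13 := card_modEq_of_iter 13 (fun β : Ω => x • β) (fun β => by rw [hiter, hx, one_smul])
  -- `x w = w x^9`
  have hxw : x * w = w * x ^ 9 := by
    have h1 : w * x ^ 9 * w⁻¹ = (x ^ 3) ^ 9 := by
      rw [← hwx, conj_pow]
    have h2 : (x ^ 3) ^ 9 = x := by
      rw [← pow_mul]
      calc x ^ (3 * 9) = (x ^ 13) ^ 2 * x := by rw [← pow_mul, ← pow_succ]
        _ = x := by rw [hx, one_pow, one_mul]
    rw [h2] at h1
    calc x * w = (w * x ^ 9 * w⁻¹) * w := by rw [h1]
      _ = w * x ^ 9 := by group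
  have hinv : ∀ β : Ω, x • β = β → x • (w • β) = w • β := by
    intro β hβ
    rw [smul_smul, hxw, ← smul_smul]
    congr 1
    have : ∀ n : ℕ, x ^ n • β = β := by
      intro n
      induction n with
      | zero => simp
      | succ n ih => rw [pow_succ, ← smul_smul, hβ, ih]
    exact this 9
  -- `3 ∣ |Fix x|`
  have h3 := card_modEq_of_iter 3
    (fun β : {β : Ω // x • β = β} => (⟨w • β.1, hinv β.1 β.2⟩ : {β : Ω // x • β = β}))
    (fun β => by
      apply Subtype.ext
      have : ∀ n : ℕ, (((fun β : {β : Ω // x • β = β} =>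
          (⟨w • β.1, hinv β.1 β.2⟩ : {β : Ω // x • β = β}))^[n] β : {β : Ω // x • β = β}) : Ω)
          = w ^ n • β.1 := by
        intro n
        induction n with
        | zero => simp
        | succ n ih =>
          rw [Function.iterate_succ_apply']
          show w • _ = _
          rw [ih, smul_smul, pow_succ']
      rw [this, hw, one_smul])
  have hempty : Nat.card {a : {β : Ω // x • β = β} //
      (⟨w • a.1, hinv a.1 a.2⟩ : {β : Ω // x • β = β}) = a} = 0 := by
    rw [Nat.card_eq_zero]
    left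
    constructor
    rintro ⟨a, ha⟩
    have hw0 : IsEmpty (MulAction.fixedBy Ω w) := by
      rcases Nat.card_eq_zero.1 hfix with h | h
      · exact h
      · exact absurd (inferInstance : Finite (MulAction.fixedBy Ω w)) (not_finite_iff_infinite.2 h)
    exact hw0.false ⟨a.1, congrArg Subtype.val ha⟩
  rw [hempty] at h3
  rw [hΩ, Nat.card_eq_fintype_card] at h13
  have hle : Fintype.card {β : Ω // x • β = β} ≤ 27 := by
    rw [← hΩ]; exact Fintype.card_subtype_le _
  have h27 : Fintype.card {β : Ω // x • β = β} = 27 := by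
    unfold Nat.ModEq at h3 h13
    omega
  apply hx1
  apply FaithfulSMul.eq_of_smul_eq_smul (α := Ω)
  intro β
  rw [one_smul]
  have hall : Fintype.card {β : Ω // x • β = β} = Fintype.card Ω := by rw [h27, hΩ]
  by_contra hβ
  have hlt : Fintype.card {β : Ω // x • β = β} < Fintype.card Ω := Fintype.card_subtype_lt hβ
  omega

end Cfsg.Agent.Lib.Helper20.Tits2T
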