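/-
Piece T of helper20's farm for S2197 (by helper67).
-/
import Cfsg.Agent.Lib.Helper20.Tits2T.Defs

set_option autoImplicit false

namespace Cfsg.Agent.Lib.Helper20.Tits2T

theorem Data.of_equiv {G G' : Type*} [Group G] [Group G'] (e : G ≃* G') (D : Data G) : Data G' := by
  obtain ⟨hc, ⟨x, w, R, hx1, hx, hw1, hw, hwx, hR, hRc⟩, ⟨y, Q, hy1, hQ, hQc⟩⟩ := D
  have hne : ∀ g : G, g ≠ 1 → e g ≠ 1 := fun g hg h => hg (by simpa using h)
  have hcardmap : ∀ K : Subgroup G, Nat.card (K.map e.toMonoidHom) = Nat.card K := fun K =>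
    Subgroup.card_map_of_injective e.injective
  refine ⟨by rw [← Nat.card_congr e.toEquiv, hc],
    ⟨e x, e w, R.map e.toMonoidHom, hne x hx1, by rw [← map_pow, hx, map_one], hne w hw1,
      by rw [← map_pow, hw, map_one], by rw [← map_inv, ← map_mul, ← map_mul, hwx, map_pow],
      by rw [hcardmap, hR], ?_⟩,
    ⟨e y, Q.map e.toMonoidHom, hne y hy1, by rw [hcardmap, hQ], ?_⟩⟩
  · rintro _ ⟨r, hr, rfl⟩ hr1
    have : r ≠ 1 := by
      rintro rfl
      exact hr1 (map_one _)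
    obtain ⟨c, hc⟩ := hRc r hr this
    refine ⟨e c, ?_⟩
    rw [← map_inv, ← map_mul, ← map_mul, hc]
    rfl
  · rintro _ ⟨r, hr, rfl⟩ hr1
    have : r ≠ 1 := by
      rintro rfl
      exact hr1 (map_one _)
    obtain ⟨c, hc⟩ := hQc r hr this
    refine ⟨e c, ?_⟩
    rw [← map_inv, ← map_mul, ← map_mul, hc]
    rfl

end Cfsg.Agent.Lib.Helper20.Tits2T
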