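/-
Helper library (helper20): the data of `Tits2T.Defs` for the Tits group.
-/
import Cfsg.Agent.Lib.Helper20.Tits2T.Iso
import Cfsg.Agent.Lib.Helper20.Tits2T.T

set_option autoImplicit false
set_option maxRecDepth 100000

namespace Cfsg.Agent.Lib.Helper20.Tits2T

theorem tits_data : Data Cfsg.Lie.TitsGroup := by
  obtain ⟨e⟩ := exists_iso
  exact Data.of_equiv e data

end Cfsg.Agent.Lib.Helper20.Tits2T
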