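/-
Helper library (helper20): a group with the data of `Tits2T.Defs` has no faithful 2-transitive action
on a finite set with at least three points.  (Pieces A1 A2 B1 B2 B3 C by helper67.)
-/
import Cfsg.Agent.Lib.Helper20.Tits2T.A1
import Cfsg.Agent.Lib.Helper20.Tits2T.A2
import Cfsg.Agent.Lib.Helper20.Tits2T.B1
import Cfsg.Agent.Lib.Helper20.Tits2T.B2
import Cfsg.Agent.Lib.Helper20.Tits2T.B3
import Cfsg.Agent.Lib.Helper20.Tits2T.C

set_option autoImplicit false
set_option linter.style.haveILetI false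

namespace Cfsg.Agent.Lib.Helper20.Tits2T

theorem card_fixedBy_lt {G : Type*} [Group G] {Ω : Type*} [Fintype Ω]
    [MulAction G Ω] [FaithfulSMul G Ω] (g : G) (hg : g ≠ 1) :
    Nat.card (MulAction.fixedBy Ω g) < Fintype.card Ω := by
  classical
  rw [Nat.card_eq_fintype_card]
  apply Fintype.card_subtype_lt (x := (Classical.choose (by
    by_contra hcon
    push Not at hcon
    exact hg (FaithfulSMul.eq_of_smul_eq_smul (α := Ω) (fun β => by rw [hcon β, one_smul])) :
      ∃ β : Ω, g • β ≠ β)))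
  exact Classical.choose_spec (by
    by_contra hcon
    push Not at hcon
    exact hg (FaithfulSMul.eq_of_smul_eq_smul (α := Ω) (fun β => by rw [hcon β, one_smul])) :
      ∃ β : Ω, g • β ≠ β)

theorem exists_moved {G : Type*} [Group G] [Finite G] {Ω : Type*} [Fintype Ω]
    [MulAction G Ω] (h2 : MulAction.IsMultiplyPretransitive G Ω 2) (Q : Subgroup G)
    (hQ : Nat.card Q = 25) (hn : ¬ 25 * Fintype.card Ω ∣ Nat.card G) (β : Ω) :
    ∃ h ∈ Q, h • β ≠ β := by
  by_contra hcon
  push Not at hcon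
  have hle : Q ≤ MulAction.stabilizer G β := fun h hh => hcon h hh
  have h1 := Subgroup.card_dvd_of_le hle
  rw [hQ] at h1
  apply hn
  rw [← card_stabilizer_mul h2 β]
  exact Nat.mul_dvd_mul_right h1 _

theorem no_two_transitive {G : Type*} [Group G] (D : Data G) {Ω : Type*} [Fintype Ω]
    [MulAction G Ω] [FaithfulSMul G Ω] (hΩ : 3 ≤ Fintype.card Ω) :
    ¬ MulAction.IsMultiplyPretransitive G Ω 2 := by
  intro h2
  haveI : Finite G := Nat.finite_of_card_ne_zero (by rw [D.card]; norm_num)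
  have hd : Fintype.card Ω * (Fintype.card Ω - 1) ∣ 17971200 := D.card ▸ two_trans_dvd h2 (by omega)
  obtain ⟨x, w, R, hx1, hx, hw1, hw, hwx, hR, hRc⟩ := D.ex3
  obtain ⟨y, Q, hy1, hQ, hQc⟩ := D.ex5
  have bR := burnside_const (Ω := Ω) R w hRc
  have bQ := burnside_const (Ω := Ω) Q y hQc
  rw [hR] at bR
  rw [hQ] at bQ
  have f3lt := card_fixedBy_lt (Ω := Ω) w hw1
  have f5lt := card_fixedBy_lt (Ω := Ω) y hy1
  haveI : Fact (Nat.Prime 5) := ⟨by norm_num⟩
  have hQp : IsPGroup 5 Q := IsPGroup.of_card (n := 2) (by rw [hQ]; norm_num)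
  rcases cand _ hΩ hd with h | h | h | h
  · omega
  · exact case27 h x w hx1 hx hw hwx (by omega)
  · have h5 := orbits_mul_le (Ω := Ω) Q 5 hQp
      (exists_moved h2 Q hQ (by rw [h, D.card]; norm_num))
    omega
  · have h5 := orbits_mul_le (Ω := Ω) Q 5 hQp
      (exists_moved h2 Q hQ (by rw [h, D.card]; norm_num))
    omega

end Cfsg.Agent.Lib.Helper20.Tits2T
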